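import Cfsg.Agent.H64.DS.Chk
import Cfsg.Agent.H492.IMHN
import Cfsg.Agent.H678.DG.HeDegA
import Cfsg.Agent.H678.DG.Tits
import Cfsg.Agent.H707.RowTits

/-!
# `He`, `HN` and the Tits group for S4906 (helper64)

From the exact degrees `680`, `1275` of `He`, `8910`, `365750` of `HN`, `78`, `650` of the Tits group.
-/

set_option autoImplicit false

namespace Cfsg.Agent.H64.DS

open Cfsg Cfsg.Agent.H704 Cfsg.Agent.H999.DS

universe u

theorem row_he {K : Type u} [Group K] [Finite K] (h : Spor.IsoHe K) {n : ℕ} (_hn : 5 ≤ n) (hd : DegOK n K) :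
    False := by
  obtain ⟨e⟩ := h
  obtain ⟨χ, hχ⟩ := H678.DG.HeDegA.deg_680
  obtain ⟨θ, hθ⟩ := H678.DG.HeDegA.deg_1275
  exact no_he (isDeg_of_degOK e hd χ.2 (one_of_charDegree χ.2 hχ)) (isDeg_of_degOK e hd θ.2 (one_of_charDegree θ.2 hθ))

theorem row_hn {K : Type u} [Group K] [Finite K] (h : Spor.IsoHN K) {n : ℕ} (_hn : 5 ≤ n) (hd : DegOK n K) :
    False := by
  obtain ⟨e⟩ := h
  obtain ⟨χ, hχ⟩ := H492.IMHN.exists_8910
  obtain ⟨θ, hθ⟩ := H492.IMHN.exists_365750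
  exact no_hn (isDeg_of_degOK e hd χ.2 hχ) (isDeg_of_degOK e hd θ.2 hθ)

theorem row_tits {K : Type u} [Group K] [Finite K] (h : Lie.IsoTits K) {n : ℕ} (_hn : 5 ≤ n) (hd : DegOK n K) :
    False := by
  obtain ⟨e⟩ := h
  obtain ⟨f⟩ := H707.RowTits.equiv
  obtain ⟨χ, hχ⟩ := H678.DG.Tits.deg_78
  obtain ⟨θ, hθ⟩ := H678.DG.Tits.deg_650
  exact no_tits (isDeg_of_degOK (e.trans f) hd χ.2 (one_of_charDegree χ.2 hχ))
    (isDeg_of_degOK (e.trans f) hd θ.2 (one_of_charDegree θ.2 hθ))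

end Cfsg.Agent.H64.DS
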